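import Mathlib
import Cfsg.Prelude.Def_Transfer
import Cfsg.Agent.Lib.CentMax.Abelian
import Cfsg.Agent.Lib.SolvStruct.Schmidt
import Cfsg.Agent.Lib.SolvStruct.Fit
import Cfsg.Agent.Lib.Solvable.Hall
import Cfsg.Agent.Lib.PGroups.Basic

/-!
# Groups in which centralizers of non-central elements are maximal: the two conclusions
-/

set_option autoImplicit false
set_option linter.style.haveILetI false
set_option linter.unusedSectionVars false

namespace Cfsg.Agent.Lib.CentMax.Main

open Subgroup Cfsg.Agent.Lib.CentMax.Basic Cfsg.Agent.Lib.CentMax.Abelian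

variable {G : Type*} [Group G] [Finite G]

section two

variable {Γ : Type*} [Group Γ] [Finite Γ]

theorem isMulCommutative_of_isCyclic {H : Type*} [Group H] (hc : IsCyclic H) : IsMulCommutative H := by
  refine ⟨⟨fun a b => ?_⟩⟩
  obtain ⟨g, hg⟩ := hc
  obtain ⟨m, rfl⟩ := hg a
  obtain ⟨n, rfl⟩ := hg b
  exact zpow_mul_comm g m n

/-- The abstract form of the second conclusion. -/
theorem concl_two (L : Subgroup Γ) [hLn : L.Normal] (hLab : IsMulCommutative L) (hq : L.index.Prime)
    (hmin : ∀ Y : Subgroup Γ, Y.Normal → Y ≠ ⊥ → Y ≤ L → Y = L) (hna : ¬ IsMulCommutative Γ) :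
    (∀ H : Subgroup Γ, H ≠ ⊤ → IsMulCommutative H) ∧
    ∃ p q a : ℕ, p.Prime ∧ q.Prime ∧ p ≠ q ∧ Nat.card Γ = p ^ a * q ∧
      ∀ P : Subgroup Γ, Nat.card P = p ^ a → P.Normal := by
  have hcardq : Nat.card (Γ ⧸ L) = L.index := rfl
  haveI : Fact L.index.Prime := ⟨hq⟩
  haveI hcyc : IsCyclic (Γ ⧸ L) := isCyclic_of_prime_card hcardq
  have hLne : L ≠ ⊥ := by
    rintro rfl
    apply hna
    have h1 : (Nat.card Γ).Prime := by
      rwa [Subgroup.index_bot] at hq
    haveI : Fact (Nat.card Γ).Prime := ⟨h1⟩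
    exact isMulCommutative_of_isCyclic (isCyclic_of_prime_card rfl)
  have hLcard : Nat.card L ≠ 1 := by
    intro h1
    exact hLne (Subgroup.eq_bot_of_card_eq L h1)
  obtain ⟨p, hp, hpd⟩ := Nat.exists_prime_and_dvd hLcard
  haveI : Fact p.Prime := ⟨hp⟩
  have hcomm : ∀ a ∈ L, ∀ b ∈ L, a * b = b * a := by
    intro a ha b hb
    exact congrArg Subtype.val (hLab.is_comm.comm (⟨a, ha⟩ : L) ⟨b, hb⟩)
  -- the elements of order dividing `p`
  let Ω : Subgroup Γ :=
    { carrier := {v | v ∈ L ∧ v ^ p = 1}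
      mul_mem' := by
        rintro a b ⟨ha, ha'⟩ ⟨hb, hb'⟩
        refine ⟨L.mul_mem ha hb, ?_⟩
        have hc : Commute a b := hcomm a ha b hb
        rw [hc.mul_pow, ha', hb', one_mul]
      one_mem' := ⟨L.one_mem, one_pow p⟩
      inv_mem' := by
        rintro a ⟨ha, ha'⟩
        exact ⟨L.inv_mem ha, by rw [inv_pow, ha', inv_one]⟩ }
  have hΩn : Ω.Normal := by
    constructor
    rintro v ⟨hv, hv'⟩ g
    refine ⟨hLn.conj_mem v hv g, ?_⟩
    rw [conj_pow, hv', mul_one, mul_inv_cancel]
  have hΩne : Ω ≠ ⊥ := by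
    obtain ⟨m, hm⟩ := exists_prime_orderOf_dvd_card' (G := L) p hpd
    intro hbot
    have hmΩ : (m : Γ) ∈ Ω := ⟨m.2, by
      have := pow_orderOf_eq_one m
      rw [hm] at this
      exact congrArg Subtype.val this⟩
    rw [hbot, Subgroup.mem_bot] at hmΩ
    have h1 : m = 1 := Subtype.ext hmΩ
    rw [h1, orderOf_one] at hm
    exact hp.one_lt.ne hm
  have hΩL : Ω = L := hmin Ω hΩn hΩne (fun v hv => hv.1)
  have hLexp : ∀ v ∈ L, v ^ p = 1 := by
    intro v hv
    have : v ∈ Ω := hΩL ▸ hv
    exact this.2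
  have hLp : IsPGroup p L := by
    intro v
    refine ⟨1, ?_⟩
    apply Subtype.ext
    simpa using hLexp v v.2
  obtain ⟨a, ha⟩ := IsPGroup.iff_card.mp hLp
  have hcardΓ : Nat.card Γ = p ^ a * L.index := by
    rw [← ha, Subgroup.card_mul_index]
  have hpq : p ≠ L.index := by
    intro hpq
    apply hna
    have hΓp : IsPGroup p Γ := by
      rw [IsPGroup.iff_card]
      refine ⟨a + 1, ?_⟩
      rw [hcardΓ, ← hpq, pow_succ]
    haveI := hΓp.isNilpotent
    have h1 := Cfsg.Agent.Lib.SolvStruct.Fit.inf_center_ne_bot L hLne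
    haveI : (L ⊓ center Γ).Normal := inferInstance
    have h2 : L ⊓ center Γ = L := hmin _ inferInstance h1 inf_le_left
    have h3 : L ≤ center Γ := by
      rw [← h2]
      exact inf_le_right
    apply MonoidHom.isMulCommutative_of_isCyclic_of_ker_le_center (QuotientGroup.mk' L)
    rw [QuotientGroup.ker_mk']
    exact h3
  refine ⟨?_, p, L.index, a, hp, hq, hpq, hcardΓ, ?_⟩
  · intro H hH
    by_cases hHL : H ≤ L
    · refine ⟨⟨fun x y => Subtype.ext ?_⟩⟩
      exact hcomm x (hHL x.2) y (hHL y.2)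
    · have hsup : H ⊔ L = ⊤ := by
        have hco := Cfsg.Agent.Lib.PGroups.Basic.isCoatom_of_index_prime hq
        rw [sup_comm]
        apply hco.2
        refine lt_of_le_of_ne le_sup_left ?_
        intro heq
        exact hHL (by rw [heq]; exact le_sup_right)
      have hinf : (H ⊓ L).Normal := by
        constructor
        rintro v ⟨hvH, hvL⟩ g
        have hg : g ∈ H ⊔ L := hsup ▸ mem_top g
        obtain ⟨h₁, hh₁, l, hl, rfl⟩ := Subgroup.mem_sup_of_normal_right.mp hg
        have h1 : h₁ * l * v * (h₁ * l)⁻¹ = h₁ * v * h₁⁻¹ := by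
          have := hcomm l hl v hvL
          calc h₁ * l * v * (h₁ * l)⁻¹ = h₁ * (l * v) * l⁻¹ * h₁⁻¹ := by group
            _ = h₁ * (v * l) * l⁻¹ * h₁⁻¹ := by rw [this]
            _ = h₁ * v * h₁⁻¹ := by group
        rw [h1]
        exact ⟨H.mul_mem (H.mul_mem hh₁ hvH) (H.inv_mem hh₁), hLn.conj_mem v hvL h₁⟩
      by_cases hbot : H ⊓ L = ⊥
      · let f : H →* Γ ⧸ L := (QuotientGroup.mk' L).comp H.subtype
        have hf : Function.Injective f := by
          rw [injective_iff_map_eq_one]
          intro v hv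
          have hvL : (v : Γ) ∈ L := (QuotientGroup.eq_one_iff _).mp hv
          have : (v : Γ) ∈ H ⊓ L := ⟨v.2, hvL⟩
          rw [hbot, Subgroup.mem_bot] at this
          exact Subtype.ext this
        exact isMulCommutative_of_isCyclic (isCyclic_of_injective f hf)
      · have h1 := hmin _ hinf hbot inf_le_right
        exact absurd (by rw [← h1]; exact inf_le_left : L ≤ H) (by
          intro hLH
          apply hH
          rw [← hsup, sup_eq_left.mpr hLH])
  · intro P hP
    have hPp : IsPGroup p P := IsPGroup.of_card hP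
    have hPL : P ≤ L := by
      intro v hv
      obtain ⟨k, hk⟩ := orderOf_of_mem hPp hv
      have hQ : IsPGroup L.index (Γ ⧸ L) := IsPGroup.of_card (n := 1) (by rw [hcardq, pow_one])
      have hco : (orderOf v).Coprime L.index := by
        rw [hk]
        exact Nat.Coprime.pow_left k ((Nat.coprime_primes hp hq).mpr hpq)
      have := Cfsg.Agent.Lib.Transfer.Basic.map_eq_one_of_coprime_of_isPGroup hQ
        (QuotientGroup.mk' L) hco
      exact (QuotientGroup.eq_one_iff v).mp this
    have hPeq : P = L := Subgroup.eq_of_le_of_card_ge hPL (by rw [ha, hP])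
    rw [hPeq]
    exact hLn

end two

section main

variable (h : ∀ x : G, x ∉ center G → IsCoatom (cen x))

include h in
/-- A non-normal centralizer is abelian. -/
theorem isMulCommutative_cen {x : G} (hx : x ∉ center G) (hnn : ¬ (cen x).Normal) :
    IsMulCommutative (cen x) := by
  obtain ⟨p, hp, x', -, hx'Z, hx'o, hx'c⟩ := exists_prime_part h x hx
  haveI : Fact p.Prime := ⟨hp⟩
  by_contra hna
  exact not_good h (p := p) (x := x') ⟨hx'Z, hx'o, hx'c ▸ hna, hx'c ▸ hnn⟩

theorem cen_conj (g x : G) : cen (g * x * g⁻¹) = (cen x).map (MulAut.conj g).toMonoidHom := by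
  ext y
  constructor
  · intro hy
    refine ⟨g⁻¹ * y * g, ?_, by simp [MulAut.conj_apply, mul_assoc]⟩
    show g⁻¹ * y * g ∈ cen x
    rw [mem_cen] at hy ⊢
    calc g⁻¹ * y * g * x = g⁻¹ * (y * (g * x * g⁻¹)) * g := by group
      _ = g⁻¹ * ((g * x * g⁻¹) * y) * g := by rw [hy]
      _ = x * (g⁻¹ * y * g) := by group
  · rintro ⟨a, ha, rfl⟩
    have ha' : a ∈ cen x := ha
    rw [mem_cen] at ha' ⊢
    simp only [MulEquiv.coe_toMonoidHom, MulAut.conj_apply]
    calc g * a * g⁻¹ * (g * x * g⁻¹) = g * (a * x) * g⁻¹ := by group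
      _ = g * (x * a) * g⁻¹ := by rw [ha']
      _ = g * x * g⁻¹ * (g * a * g⁻¹) := by group

theorem conj_notMem_center {g x : G} (hx : x ∉ center G) : g * x * g⁻¹ ∉ center G := by
  intro hc
  apply hx
  have := (inferInstance : (center G).Normal).conj_mem _ hc g⁻¹
  simpa [mul_assoc] using this

/-- The non-central elements with a conjugate in the centralizer of `w`. -/
def conjSet (w : G) : Set G := {u | u ∉ center G ∧ ∃ g : G, g⁻¹ * u * g ∈ cen w}

include h in
/-- For an abelian non-normal centralizer, centralizers of its non-central elements coincide with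
it. -/
theorem cen_eq_of_mem {w a : G} (hw : w ∉ center G) (hnn : ¬ (cen w).Normal) (ha : a ∈ cen w)
    (haZ : a ∉ center G) : cen a = cen w := by
  have hab := isMulCommutative_cen h hw hnn
  symm
  apply cen_eq_of_le h hw haZ
  intro m hm
  have := hab.is_comm.comm (⟨m, hm⟩ : cen w) ⟨a, ha⟩
  exact mem_cen.mpr (congrArg Subtype.val this)

include h in
theorem normalizer_cen {w : G} (hw : w ∉ center G) (hnn : ¬ (cen w).Normal) :
    normalizer (cen w : Set G) = cen w := by
  by_contra hne
  have h1 := (h w hw).2 _ (lt_of_le_of_ne (le_normalizer) (Ne.symm hne))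
  exact hnn (Subgroup.normalizer_eq_top_iff.mp h1)

include h in
/-- The trivial intersection property. -/
theorem mem_of_conj_mem {w a k : G} (hw : w ∉ center G) (hnn : ¬ (cen w).Normal) (ha : a ∈ cen w)
    (haZ : a ∉ center G) (hk : k * a * k⁻¹ ∈ cen w) : k ∈ cen w := by
  have h1 := cen_eq_of_mem h hw hnn ha haZ
  have h2 := cen_eq_of_mem h hw hnn hk (conj_notMem_center haZ)
  rw [cen_conj, h1] at h2
  have h3 : k ∈ normalizer (cen w : Set G) := by
    rw [Subgroup.mem_normalizer_iff]
    intro y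
    constructor
    · intro hy
      have : k * y * k⁻¹ ∈ (cen w).map (MulAut.conj k).toMonoidHom := ⟨y, hy, by simp [MulAut.conj_apply]⟩
      rwa [h2] at this
    · intro hy
      have hy' : k * y * k⁻¹ ∈ (cen w).map (MulAut.conj k).toMonoidHom := by rwa [h2]
      obtain ⟨b, hb, hbe⟩ := hy'
      simp only [MulEquiv.coe_toMonoidHom, MulAut.conj_apply] at hbe
      have : b = y := by
        have := mul_left_cancel (mul_right_cancel hbe)
        exact this
      rwa [← this]
  rwa [normalizer_cen h hw hnn] at h3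

include h in
/-- Counting the conjugates of an abelian non-normal centralizer. -/
theorem ncard_conjSet {w : G} (hw : w ∉ center G) (hnn : ¬ (cen w).Normal) :
    (conjSet w).ncard + (cen w).index * Nat.card (center G) = Nat.card G := by
  classical
  set M := cen w with hM
  set S₁ : Set G := (M : Set G) \ (center G : Set G) with hS₁
  have hZM : (center G : Set G) ⊆ (M : Set G) := by
    intro z hz
    exact mem_cen.mpr (mem_center_iff.mp hz w).symm
  have hS₁card : S₁.ncard + Nat.card (center G) = Nat.card M := by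
    have := Set.ncard_sdiff_add_ncard_of_subset hZM (Set.toFinite _)
    have e1 : ((center G : Subgroup G) : Set G).ncard = Nat.card (center G) :=
      (Nat.card_coe_set_eq _).symm
    have e2 : ((M : Subgroup G) : Set G).ncard = Nat.card M := (Nat.card_coe_set_eq _).symm
    rw [e1, e2] at this
    exact this
  let φ : (G ⧸ M) × G → G := fun q => q.1.out * q.2 * q.1.out⁻¹
  have hab := isMulCommutative_cen h hw hnn
  have himg : conjSet w = φ '' (Set.univ ×ˢ S₁) := by
    ext u
    constructor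
    · rintro ⟨huZ, g, hg⟩
      have hgZ : g⁻¹ * u * g ∉ center G := by
        have := conj_notMem_center (g := g⁻¹) huZ
        simpa using this
      refine ⟨((g : G ⧸ M), (((g : G ⧸ M).out)⁻¹ * u * (g : G ⧸ M).out)), ⟨trivial, ?_⟩, ?_⟩
      · have hout : (g⁻¹ * (g : G ⧸ M).out) ∈ M := by
          have := QuotientGroup.mk_out_eq_mul M g
          obtain ⟨m, hm⟩ := this
          rw [hm]
          simp
        set r := (g : G ⧸ M).out with hr
        have heq : r⁻¹ * u * r = (g⁻¹ * r)⁻¹ * (g⁻¹ * u * g) * (g⁻¹ * r) := by group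
        rw [heq]
        refine ⟨?_, ?_⟩
        · exact M.mul_mem (M.mul_mem (M.inv_mem hout) hg) hout
        · intro hZ
          have := conj_notMem_center (g := (g⁻¹ * r)⁻¹) hgZ
          simp only [inv_inv] at this
          exact this hZ
      · simp only [φ]
        group
    · rintro ⟨⟨q, a⟩, ⟨-, ha, haZ⟩, rfl⟩
      refine ⟨conj_notMem_center haZ, q.out, ?_⟩
      simp only [φ]
      have : q.out⁻¹ * (q.out * a * q.out⁻¹) * q.out = a := by group
      rw [this]
      exact ha
  have hinj : Set.InjOn φ (Set.univ ×ˢ S₁) := by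
    rintro ⟨q, a⟩ ⟨-, ha, haZ⟩ ⟨q', a'⟩ ⟨-, ha', haZ'⟩ heq
    simp only [φ] at heq
    have h1 : (q'.out⁻¹ * q.out) * a * (q'.out⁻¹ * q.out)⁻¹ = a' := by
      calc (q'.out⁻¹ * q.out) * a * (q'.out⁻¹ * q.out)⁻¹
          = q'.out⁻¹ * (q.out * a * q.out⁻¹) * q'.out := by group
        _ = q'.out⁻¹ * (q'.out * a' * q'.out⁻¹) * q'.out := by rw [heq]
        _ = a' := by group
    have h2 : q'.out⁻¹ * q.out ∈ M :=
      mem_of_conj_mem h hw hnn ha haZ (by rw [h1]; exact ha')
    have h3 : q' = q := by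
      have := (QuotientGroup.eq (s := M) (a := q'.out) (b := q.out)).mpr h2
      simpa using this
    subst h3
    have h4 : a = a' := by
      have := mul_left_cancel (mul_right_cancel heq)
      exact this
    rw [h4]
  have hcard : (conjSet w).ncard = M.index * S₁.ncard := by
    rw [himg, hinj.ncard_image, Set.ncard_prod, Set.ncard_univ]
    rfl
  have h5 : M.index * Nat.card M = Nat.card G := Subgroup.index_mul_card M
  rw [hcard, ← h5, ← hS₁card, mul_add]

include h in
theorem mem_or_of_mem_cen {w u v : G} (hw : w ∉ center G) (hnn : ¬ (cen w).Normal)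
    (hu : u ∈ conjSet w) (hv : v ∈ cen u) : v ∈ center G ∨ v ∈ conjSet w := by
  obtain ⟨huZ, g, hg⟩ := hu
  have haZ : g⁻¹ * u * g ∉ center G := by
    have := conj_notMem_center (g := g⁻¹) huZ
    simpa using this
  have h1 := cen_eq_of_mem h hw hnn hg haZ
  have h2 : cen u = (cen w).map (MulAut.conj g).toMonoidHom := by
    rw [← h1, ← cen_conj]
    congr 1
    group
  rw [h2] at hv
  obtain ⟨b, hb, rfl⟩ := hv
  by_cases hZ : (MulAut.conj g).toMonoidHom b ∈ center G
  · exact Or.inl hZ
  · refine Or.inr ⟨hZ, g, ?_⟩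
    simpa [MulAut.conj_apply, mul_assoc] using hb

theorem conjSet_conj {w v : G} (g : G) (hv : v ∈ conjSet w) : g * v * g⁻¹ ∈ conjSet w := by
  obtain ⟨hvZ, k, hk⟩ := hv
  refine ⟨conj_notMem_center hvZ, g * k, ?_⟩
  have : (g * k)⁻¹ * (g * v * g⁻¹) * (g * k) = k⁻¹ * v * k := by group
  rwa [this]

include h in
theorem disjoint_conjSet {w₁ w₂ : G} (h₁ : w₁ ∉ center G) (hn₁ : ¬ (cen w₁).Normal)
    (h₂ : w₂ ∉ center G) (h₃ : w₂ ∉ conjSet w₁) : Disjoint (conjSet w₁) (conjSet w₂) := by
  rw [Set.disjoint_left]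
  intro u hu₁ hu₂
  obtain ⟨huZ, g, hg⟩ := hu₂
  have h4 : g * w₂ * g⁻¹ ∈ cen u := by
    rw [mem_cen]
    have hg' : g⁻¹ * u * g * w₂ = w₂ * (g⁻¹ * u * g) := mem_cen.mp hg
    calc g * w₂ * g⁻¹ * u = g * (w₂ * (g⁻¹ * u * g)) * g⁻¹ := by group
      _ = g * (g⁻¹ * u * g * w₂) * g⁻¹ := by rw [hg']
      _ = u * (g * w₂ * g⁻¹) := by group
  rcases mem_or_of_mem_cen h h₁ hn₁ hu₁ h4 with h5 | h5
  · exact conj_notMem_center h₂ h5
  · apply h₃
    have := conjSet_conj g⁻¹ h5
    simpa [mul_assoc] using this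

theorem two_mul_card_center_le {w : G} (hw : w ∉ center G) :
    2 * Nat.card (center G) ≤ Nat.card (cen w) := by
  have hle : center G ≤ cen w := fun z hz => mem_cen.mpr (mem_center_iff.mp hz w).symm
  obtain ⟨c, hc⟩ := Subgroup.card_dvd_of_le hle
  have hpos : 0 < Nat.card (cen w) := Nat.card_pos
  have hzpos : 0 < Nat.card (center G) := Nat.card_pos
  have hc1 : c ≠ 1 := by
    rintro rfl
    rw [mul_one] at hc
    have heq : center G = cen w := Subgroup.eq_of_le_of_card_ge hle hc.le
    exact hw (heq ▸ mem_cen.mpr rfl)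
  have hc0 : c ≠ 0 := by
    rintro rfl
    omega
  rw [hc, mul_comm]
  exact Nat.mul_le_mul_left _ (by omega)

include h in
/-- Elements outside the conjugates of an abelian non-normal centralizer have normal centralizers. -/
theorem normal_of_notMem {w₁ w₂ : G} (h₁ : w₁ ∉ center G) (hn₁ : ¬ (cen w₁).Normal)
    (h₂ : w₂ ∉ center G) (h₃ : w₂ ∉ conjSet w₁) : (cen w₂).Normal := by
  by_contra hn₂
  have hd := disjoint_conjSet h h₁ hn₁ h₂ h₃
  have c₁ := ncard_conjSet h h₁ hn₁
  have c₂ := ncard_conjSet h h₂ hn₂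
  have e₁ := two_mul_card_center_le h₁
  have e₂ := two_mul_card_center_le h₂
  have i₁ := Subgroup.index_mul_card (cen w₁)
  have i₂ := Subgroup.index_mul_card (cen w₂)
  have hz : 0 < Nat.card (center G) := Nat.card_pos
  set z := Nat.card (center G) with hzdef
  have l₁ : 2 * ((cen w₁).index * z) ≤ Nat.card G := by
    calc 2 * ((cen w₁).index * z) = (cen w₁).index * (2 * z) := by ring
      _ ≤ (cen w₁).index * Nat.card (cen w₁) := Nat.mul_le_mul_left _ e₁
      _ = Nat.card G := i₁
  have l₂ : 2 * ((cen w₂).index * z) ≤ Nat.card G := by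
    calc 2 * ((cen w₂).index * z) = (cen w₂).index * (2 * z) := by ring
      _ ≤ (cen w₂).index * Nat.card (cen w₂) := Nat.mul_le_mul_left _ e₂
      _ = Nat.card G := i₂
  -- all three sets are disjoint
  have hdZ₁ : Disjoint (conjSet w₁ ∪ conjSet w₂) ((center G : Subgroup G) : Set G) := by
    rw [Set.disjoint_left]
    rintro u (hu | hu) hZ
    · exact hu.1 hZ
    · exact hu.1 hZ
  have hU : (conjSet w₁ ∪ conjSet w₂ ∪ ((center G : Subgroup G) : Set G)).ncard ≤ Nat.card G := by
    rw [← Set.ncard_univ]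
    exact Set.ncard_le_ncard (Set.subset_univ _) (Set.toFinite _)
  rw [Set.ncard_union_eq hdZ₁ (Set.toFinite _) (Set.toFinite _),
    Set.ncard_union_eq hd (Set.toFinite _) (Set.toFinite _)] at hU
  have e3 : ((center G : Subgroup G) : Set G).ncard = z := (Nat.card_coe_set_eq _).symm
  rw [e3] at hU
  omega

include h in
theorem exists_notMem {w : G} (hw : w ∉ center G) (hn : ¬ (cen w).Normal) :
    ∃ w₀, w₀ ∉ center G ∧ w₀ ∉ conjSet w := by
  by_contra hall
  push Not at hall
  have c₁ := ncard_conjSet h hw hn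
  have hU : ((center G : Subgroup G) : Set G) ∪ conjSet w = Set.univ := by
    ext u
    simp only [Set.mem_union, SetLike.mem_coe, Set.mem_univ, iff_true]
    by_cases hu : u ∈ center G
    · exact Or.inl hu
    · exact Or.inr (hall u hu)
  have h1 : Nat.card G ≤ ((center G : Subgroup G) : Set G).ncard + (conjSet w).ncard := by
    rw [← Set.ncard_univ, ← hU]
    exact Set.ncard_union_le _ _
  have e3 : ((center G : Subgroup G) : Set G).ncard = Nat.card (center G) := (Nat.card_coe_set_eq _).symm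
  rw [e3] at h1
  have hz : 0 < Nat.card (center G) := Nat.card_pos
  have hidx : 2 ≤ (cen w).index := by
    have h0 : (cen w).index ≠ 0 := Subgroup.index_ne_zero_of_finite
    have h2 : (cen w).index ≠ 1 := fun h3 => (h w hw).1 (Subgroup.index_eq_one.mp h3)
    omega
  have h3 : 2 * Nat.card (center G) ≤ (cen w).index * Nat.card (center G) :=
    Nat.mul_le_mul_right _ hidx
  omega

include h in
/-- The complement of the conjugates is the centralizer of any element in it. -/
theorem coe_cen_eq_compl {w w₀ : G} (hw : w ∉ center G) (hn : ¬ (cen w).Normal)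
    (h₀ : w₀ ∉ center G) (h₀' : w₀ ∉ conjSet w) : ((cen w₀ : Subgroup G) : Set G) = (conjSet w)ᶜ := by
  have hLn := normal_of_notMem h hw hn h₀ h₀'
  have hsub : ((cen w₀ : Subgroup G) : Set G) ⊆ (conjSet w)ᶜ := by
    intro v hv hvX
    rcases mem_or_of_mem_cen h hw hn hvX (mem_cen_comm.mp hv) with h1 | h1
    · exact h₀ h1
    · exact h₀' h1
  have hinf : cen w ⊓ cen w₀ = center G := by
    apply le_antisymm
    · rintro u ⟨hu₁, hu₂⟩
      by_contra huZ
      exact hsub hu₂ ⟨huZ, 1, by simpa using hu₁⟩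
    · intro z hz
      exact ⟨mem_cen.mpr (mem_center_iff.mp hz w).symm, mem_cen.mpr (mem_center_iff.mp hz w₀).symm⟩
  have hsup : cen w ⊔ cen w₀ = ⊤ := by
    rw [sup_comm]
    apply (h w₀ h₀).2
    refine lt_of_le_of_ne le_sup_left ?_
    intro heq
    have hle : cen w ≤ cen w₀ := by
      rw [heq]
      exact le_sup_right
    have := cen_eq_of_le h hw h₀ hle
    exact hn (this ▸ hLn)
  have hcard := Cfsg.Agent.Lib.Solvable.Hall.card_sup_mul_card_inf (cen w) (cen w₀)
  rw [hsup, hinf, Subgroup.card_top] at hcard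
  have i₁ := Subgroup.index_mul_card (cen w)
  have c₁ := ncard_conjSet h hw hn
  have hm : 0 < Nat.card (cen w) := Nat.card_pos
  have hL : Nat.card (cen w₀) = (cen w).index * Nat.card (center G) := by
    apply Nat.eq_of_mul_eq_mul_left hm
    rw [← hcard, ← i₁]
    ring
  have hcompl : (conjSet w).ncard + (conjSet w)ᶜ.ncard = Nat.card G := Set.ncard_add_ncard_compl _
  apply Set.eq_of_subset_of_ncard_le hsub
  have e : ((cen w₀ : Subgroup G) : Set G).ncard = Nat.card (cen w₀) := (Nat.card_coe_set_eq _).symm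
  rw [e, hL]
  omega

include h in
/-- The second conclusion. -/
theorem concl_of_not_normal {w : G} (hw : w ∉ center G) (hn : ¬ (cen w).Normal) :
    ¬ IsMulCommutative (G ⧸ center G) ∧ (∀ H : Subgroup (G ⧸ center G), H ≠ ⊤ → IsMulCommutative H) ∧
      ∃ p q a : ℕ, p.Prime ∧ q.Prime ∧ p ≠ q ∧ Nat.card (G ⧸ center G) = p ^ a * q ∧
        ∀ P : Subgroup (G ⧸ center G), Nat.card P = p ^ a → P.Normal := by
  obtain ⟨w₀, h₀, h₀'⟩ := exists_notMem h hw hn
  set L := cen w₀ with hL
  have hLn : L.Normal := normal_of_notMem h hw hn h₀ h₀'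
  have hLset : (L : Set G) = (conjSet w)ᶜ := coe_cen_eq_compl h hw hn h₀ h₀'
  have hLab : IsMulCommutative L := by
    refine ⟨⟨fun a b => Subtype.ext ?_⟩⟩
    by_cases haZ : (a : G) ∈ center G
    · exact (mem_center_iff.mp haZ b).symm
    · have ha : (a : G) ∉ conjSet w := by
        have : (a : G) ∈ (L : Set G) := a.2
        rw [hLset] at this
        exact this
      have h1 := coe_cen_eq_compl h hw hn haZ ha
      have hb : (b : G) ∈ ((cen (a : G) : Subgroup G) : Set G) := by
        rw [h1, ← hLset]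
        exact b.2
      exact (mem_cen.mp hb).symm
  have hZL : center G ≤ L := fun z hz => mem_cen.mpr (mem_center_iff.mp hz w₀).symm
  have hZM : center G ≤ cen w := fun z hz => mem_cen.mpr (mem_center_iff.mp hz w).symm
  have hinf : ∀ u ∈ L, u ∈ cen w → u ∈ center G := by
    intro u hu₁ hu₂
    by_contra huZ
    have : u ∈ (L : Set G) := hu₁
    rw [hLset] at this
    exact this ⟨huZ, 1, by simpa using hu₂⟩
  set π := QuotientGroup.mk' (center G) with hπ
  have hπs : Function.Surjective π := QuotientGroup.mk'_surjective _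
  have hkerπ : π.ker = center G := QuotientGroup.ker_mk' _
  haveI hLbarn : (L.map π).Normal := hLn.map π hπs
  have hna : ¬ IsMulCommutative (G ⧸ center G) := by
    intro hc
    apply hn
    constructor
    intro m hm g
    have h1 := hc.is_comm.comm (π g) (π m)
    have h2 : g * m * g⁻¹ * m⁻¹ ∈ center G := by
      rw [← QuotientGroup.eq_one_iff]
      show π (g * m * g⁻¹ * m⁻¹) = 1
      rw [map_mul, map_mul, map_mul, h1, map_inv, map_inv]
      group
    have h3 : g * m * g⁻¹ = (g * m * g⁻¹ * m⁻¹) * m := by group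
    rw [h3]
    exact mul_mem (hZM h2) hm
  have hLbarab : IsMulCommutative (L.map π) := by
    refine ⟨⟨?_⟩⟩
    rintro ⟨_, a, ha, rfl⟩ ⟨_, b, hb, rfl⟩
    apply Subtype.ext
    show π a * π b = π b * π a
    rw [← map_mul, ← map_mul]
    have := hLab.is_comm.comm (⟨a, ha⟩ : L) ⟨b, hb⟩
    rw [show a * b = b * a from congrArg Subtype.val this]
  have hcomap : (L.map π).comap π = L := by
    rw [Subgroup.comap_map_eq, hkerπ, sup_eq_left.mpr hZL]
  have hidx : (L.map π).index = L.index := by
    rw [← Subgroup.index_comap_of_surjective (L.map π) hπs, hcomap]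
  have hLco : IsCoatom L := h w₀ h₀
  have hq : (L.map π).index.Prime := by
    rw [hidx]
    exact Cfsg.Agent.Lib.SolvStruct.Schmidt.index_prime_of_coatom_normal L hLco
  have hmin : ∀ Y : Subgroup (G ⧸ center G), Y.Normal → Y ≠ ⊥ → Y ≤ L.map π → Y = L.map π := by
    intro Y hYn hYne hYle
    set Y₁ := Y.comap π with hY₁
    haveI hY₁n : Y₁.Normal := hYn.comap π
    have hY₁L : Y₁ ≤ L := by
      rw [← hcomap]
      exact Subgroup.comap_mono hYle
    have hZY₁ : center G ≤ Y₁ := by
      intro z hz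
      have h1 : π z = 1 := (QuotientGroup.eq_one_iff z).mpr hz
      show π z ∈ Y
      rw [h1]
      exact Y.one_mem
    obtain ⟨yb, hyb1⟩ := Subgroup.ne_bot_iff_exists_ne_one.mp hYne
    obtain ⟨y, hy⟩ := hπs (yb : G ⧸ center G)
    have hyY₁ : y ∈ Y₁ := by
      show π y ∈ Y
      rw [hy]
      exact yb.2
    have hyZ : y ∉ center G := by
      intro hz
      apply hyb1
      apply Subtype.ext
      rw [← hy]
      exact (QuotientGroup.eq_one_iff y).mpr hz
    have hyM : y ∉ cen w := fun hyM => hyZ (hinf y (hY₁L hyY₁) hyM)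
    have hMco := h w hw
    have hsupY : cen w ⊔ Y₁ = ⊤ := by
      apply hMco.2
      refine lt_of_le_of_ne le_sup_left ?_
      intro heq
      exact hyM (by rw [heq]; exact Subgroup.mem_sup_right hyY₁)
    have hsupL : cen w ⊔ L = ⊤ := by
      apply hMco.2
      refine lt_of_le_of_ne le_sup_left ?_
      intro heq
      exact hyM (by rw [heq]; exact Subgroup.mem_sup_right (hY₁L hyY₁))
    have hinfY : cen w ⊓ Y₁ = center G := by
      apply le_antisymm
      · rintro u ⟨hu₁, hu₂⟩
        exact hinf u (hY₁L hu₂) hu₁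
      · exact le_inf hZM hZY₁
    have hinfL : cen w ⊓ L = center G := by
      apply le_antisymm
      · rintro u ⟨hu₁, hu₂⟩
        exact hinf u hu₂ hu₁
      · exact le_inf hZM hZL
    have c₁ := Cfsg.Agent.Lib.Solvable.Hall.card_sup_mul_card_inf (cen w) Y₁
    have c₂ := Cfsg.Agent.Lib.Solvable.Hall.card_sup_mul_card_inf (cen w) L
    rw [hsupY, hinfY] at c₁
    rw [hsupL, hinfL] at c₂
    have hm : 0 < Nat.card (cen w) := Nat.card_pos
    have hcardeq : Nat.card Y₁ = Nat.card L :=
      Nat.eq_of_mul_eq_mul_left hm (by rw [← c₁, ← c₂])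
    have hYL : Y₁ = L := Subgroup.eq_of_le_of_card_ge hY₁L hcardeq.ge
    rw [← hYL, hY₁, Subgroup.map_comap_eq_self_of_surjective hπs]
  obtain ⟨hA, hB⟩ := concl_two (L.map π) hLbarab hq hmin hna
  exact ⟨hna, hA, hB⟩

include h in
/-- The first conclusion. -/
theorem concl_of_normal (hn : ∀ x : G, x ∉ center G → (cen x).Normal) :
    ∃ p : ℕ, p.Prime ∧ Cfsg.IsElementaryAbelian p (⊤ : Subgroup (G ⧸ center G)) := by
  have hc₁ : ∀ a b : G, a * b * a⁻¹ * b⁻¹ ∈ center G := by
    intro a b
    rw [mem_center_iff]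
    intro x
    by_cases hx : x ∈ center G
    · exact (mem_center_iff.mp hx _).symm
    · haveI := hn x hx
      have hq := Cfsg.Agent.Lib.SolvStruct.Schmidt.index_prime_of_coatom_normal (cen x) (h x hx)
      haveI : Fact (Nat.card (G ⧸ cen x)).Prime := ⟨hq⟩
      haveI hcyc : IsCyclic (G ⧸ cen x) := isCyclic_of_prime_card rfl
      have hab := Cfsg.Agent.Lib.CentMax.Main.isMulCommutative_of_isCyclic hcyc
      have h1 := hab.is_comm.comm (QuotientGroup.mk' (cen x) a) (QuotientGroup.mk' (cen x) b)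
      have h2 : a * b * a⁻¹ * b⁻¹ ∈ cen x := by
        rw [← QuotientGroup.eq_one_iff]
        show QuotientGroup.mk' (cen x) (a * b * a⁻¹ * b⁻¹) = 1
        rw [map_mul, map_mul, map_mul, h1, map_inv, map_inv]
        group
      exact (mem_cen.mp h2).symm
  set π := QuotientGroup.mk' (center G) with hπ
  have hπs : Function.Surjective π := QuotientGroup.mk'_surjective _
  have hcomm : ∀ α β : G ⧸ center G, α * β = β * α := by
    intro α β
    obtain ⟨a, rfl⟩ := hπs α
    obtain ⟨b, rfl⟩ := hπs β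
    have h1 : π (a * b * a⁻¹ * b⁻¹) = 1 := (QuotientGroup.eq_one_iff _).mpr (hc₁ a b)
    rw [map_mul, map_mul, map_mul, map_inv, map_inv] at h1
    have h2 : π a * π b = (π a * π b * (π a)⁻¹ * (π b)⁻¹) * (π b * π a) := by group
    rw [h2, h1, one_mul]
  have hprime : ∀ α : G ⧸ center G, α ≠ 1 → (orderOf α).Prime := by
    intro α hα
    obtain ⟨x, rfl⟩ := hπs α
    have hx : x ∉ center G := by
      intro hz
      exact hα ((QuotientGroup.eq_one_iff x).mpr hz)
    haveI := hn x hx
    have hq := Cfsg.Agent.Lib.SolvStruct.Schmidt.index_prime_of_coatom_normal (cen x) (h x hx)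
    set ℓ := (cen x).index with hℓ
    have hpow : x ^ ℓ ∈ center G := by
      rw [mem_center_iff]
      intro g
      have hgℓ : g ^ ℓ ∈ cen x := Subgroup.pow_index_mem _ g
      set c := x * g * x⁻¹ * g⁻¹ with hc
      have hcZ : c ∈ center G := hc₁ x g
      have hcc : ∀ y : G, y * c = c * y := mem_center_iff.mp hcZ
      have hxg : x * g = c * (g * x) := by rw [hc]; group
      -- `x g^n = c^n g^n x`
      have h1 : ∀ n : ℕ, x * g ^ n = c ^ n * (g ^ n * x) := by
        intro n
        induction n with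
        | zero => simp
        | succ n ih =>
          calc x * g ^ (n + 1) = (x * g ^ n) * g := by rw [pow_succ]; group
            _ = c ^ n * (g ^ n * (x * g)) := by rw [ih]; group
            _ = c ^ n * (g ^ n * (c * (g * x))) := by rw [hxg]
            _ = c ^ n * ((g ^ n * c) * (g * x)) := by group
            _ = c ^ n * (c * g ^ n * (g * x)) := by rw [hcc (g ^ n)]
            _ = c ^ (n + 1) * (g ^ (n + 1) * x) := by rw [pow_succ c, pow_succ g]; group
      have h2 : ∀ n : ℕ, x ^ n * g = c ^ n * (g * x ^ n) := by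
        intro n
        induction n with
        | zero => simp
        | succ n ih =>
          calc x ^ (n + 1) * g = x ^ n * (x * g) := by rw [pow_succ]; group
            _ = x ^ n * (c * (g * x)) := by rw [hxg]
            _ = (x ^ n * c) * (g * x) := by group
            _ = c * x ^ n * (g * x) := by rw [hcc (x ^ n)]
            _ = c * (x ^ n * g) * x := by group
            _ = c * (c ^ n * (g * x ^ n)) * x := by rw [ih]
            _ = c ^ (n + 1) * (g * x ^ (n + 1)) := by rw [pow_succ c, pow_succ x, hcc (c ^ n)]; group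
      have hcℓ : c ^ ℓ = 1 := by
        have h3 := h1 ℓ
        have h4 : g ^ ℓ * x = x * g ^ ℓ := mem_cen.mp hgℓ
        rw [← h4] at h3
        exact mul_eq_right.mp h3.symm
      have h6 := h2 ℓ
      rw [hcℓ, one_mul] at h6
      exact h6.symm
    have h7 : (π x) ^ ℓ = 1 := by
      rw [← map_pow]
      exact (QuotientGroup.eq_one_iff _).mpr hpow
    haveI : Fact ℓ.Prime := ⟨hq⟩
    rw [orderOf_eq_prime h7 hα]
    exact hq
  by_cases htriv : ∀ α : G ⧸ center G, α = 1
  · refine ⟨2, Nat.prime_two, ⟨⟨⟨fun a b => Subtype.ext (hcomm a b)⟩⟩, fun a _ => by rw [htriv a, one_pow]⟩⟩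
  push Not at htriv
  obtain ⟨α₀, hα₀⟩ := htriv
  have hp := hprime α₀ hα₀
  refine ⟨orderOf α₀, hp, ⟨⟨⟨fun a b => Subtype.ext (hcomm a b)⟩⟩, ?_⟩⟩
  intro β _
  by_cases hβ : β = 1
  · rw [hβ, one_pow]
  have hr := hprime β hβ
  by_cases hrp : orderOf β = orderOf α₀
  · rw [← hrp]
    exact pow_orderOf_eq_one β
  exfalso
  have hco : (orderOf β).Coprime (orderOf α₀) := (Nat.coprime_primes hr hp).mpr hrp
  have hmul : orderOf (β * α₀) = orderOf β * orderOf α₀ :=
    (show Commute β α₀ from hcomm β α₀).orderOf_mul_eq_mul_orderOf_of_coprime hco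
  have hne : β * α₀ ≠ 1 := by
    intro h1
    rw [h1, orderOf_one] at hmul
    have := Nat.eq_one_of_mul_eq_one_right hmul.symm
    exact hr.one_lt.ne' this
  have hpr := hprime _ hne
  rw [hmul] at hpr
  exact Nat.not_prime_mul hr.ne_one hp.ne_one hpr

end main

end Cfsg.Agent.Lib.CentMax.Main
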